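import Cfsg.Agent.Helper25.Bsw4

set_option autoImplicit false

/-! PIECE AF of CALL S3282 (helper25, Brauer–Suzuki–Wall): the number of ways of writing an
element outside the conjugates of `K` as a product of two involutions, in terms of the
exceptional character `X`. -/

namespace Cfsg.Agent.Helper2

open Cfsg.Agent.Helper25 Subgroup Cfsg
open scoped ComplexConjugate

theorem bsw_a_formula {G : Type*} [Group G] [Fintype G] {t s : G} {K : Subgroup G} [Fintype K]
    [Fintype (K →* ℂˣ)] [Fintype (IrrCharacter G)] (h : BswHyp t s K) (ε : ℤ) (X : IrrCharacter G)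
    (hFS : BswFS K t ε X) (g : G) (hg : g ∉ bswCl K) :
    (bswA g : ℂ) = (if ε = 1 then (2 * (Nat.card K : ℂ) + 1) else 0) +
      (2 * (Nat.card K : ℂ) + (ε : ℂ) - 1) / 2 * (X : G → ℂ) g := by
  classical
  obtain ⟨hε, hv, hX1, hcard, h5⟩ := hFS
  -- `|K| ≥ 2`
  have hk2 : 2 ≤ Nat.card K := by
    have : Nontrivial K :=
      ⟨⟨⟨t, h.htK⟩, 1, fun e' => bsw_ne_one_of_order_two h.ht (congrArg Subtype.val e')⟩⟩
    exact Finite.one_lt_card
  obtain ⟨m, hm⟩ : ∃ m, Nat.card K = m + 2 := ⟨Nat.card K - 2, by omega⟩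
  set k : ℂ := (Nat.card K : ℂ) with hk
  have hkm : k = (m : ℂ) + 2 := by rw [hk, hm]; push_cast; ring
  have hk0 : k ≠ 0 := by
    have h0 : k = ((m + 2 : ℕ) : ℂ) := by rw [hkm]; push_cast; ring
    rw [h0]; exact Nat.cast_ne_zero.2 (by omega)
  have hk1p : k + 1 ≠ 0 := by
    have h0 : k + 1 = ((m + 3 : ℕ) : ℂ) := by rw [hkm]; push_cast; ring
    rw [h0]; exact Nat.cast_ne_zero.2 (by omega)
  have hk1m : k - 1 ≠ 0 := by
    have h0 : k - 1 = ((m + 1 : ℕ) : ℂ) := by rw [hkm]; push_cast; ring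
    rw [h0]; exact Nat.cast_ne_zero.2 (by omega)
  have h2k1p : 2 * k + 1 ≠ 0 := by
    have h0 : 2 * k + 1 = ((2 * m + 5 : ℕ) : ℂ) := by rw [hkm]; push_cast; ring
    rw [h0]; exact Nat.cast_ne_zero.2 (by omega)
  have h2k1m : 2 * k - 1 ≠ 0 := by
    have h0 : 2 * k - 1 = ((2 * m + 3 : ℕ) : ℂ) := by rw [hkm]; push_cast; ring
    rw [h0]; exact Nat.cast_ne_zero.2 (by omega)
  set e : ℂ := (ε : ℂ) with he
  have hee : e = 1 ∨ e = -1 := by
    rcases hε with h1 | h1
    · left; rw [he, h1]; simp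
    · right; rw [he, h1]; simp
  have hke : k + e ≠ 0 := by
    rcases hee with h1 | h1 <;> rw [h1]
    · exact hk1p
    · rw [← sub_eq_add_neg]; exact hk1m
  have h2ke : 2 * k + e ≠ 0 := by
    rcases hee with h1 | h1 <;> rw [h1]
    · exact h2k1p
    · rw [← sub_eq_add_neg]; exact h2k1m
  set triv : IrrCharacter G := Cfsg.Agent.Helper79.trivIrr G with htriv
  have htriv_apply : ∀ y : G, (triv : G → ℂ) y = 1 := fun y => rfl
  -- `X ≠ 1`
  have hXt : X ≠ triv := by
    intro hXe
    rw [hXe, htriv_apply] at hX1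
    rcases hee with h1 | h1
    · rw [h1] at hX1
      apply hk0
      linear_combination (-1 / 2 : ℂ) * hX1
    · rw [h1] at hX1
      apply hk1m
      linear_combination (-1 / 2 : ℂ) * hX1
  -- the number of linear characters of `K`
  have hcardL : ((Finset.univ : Finset (K →* ℂˣ)).card : ℂ) = k := by
    rw [Finset.card_univ, ← Nat.card_eq_fintype_card,
      Cfsg.Agent.Helper82.excHom_card (bsw_comm h), ← Nat.card_eq_fintype_card]
  -- the multiplicities
  have hvX : ∀ lam : K →* ℂˣ, (bswV K lam X : ℂ) = if lam = 1 then 0 else e := by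
    intro lam
    by_cases hl : lam = 1
    · rw [if_pos hl, hl, bswV_one_hom]; simp
    · rw [if_neg hl, hv lam hl]
  have hvT : ∀ lam : K →* ℂˣ, (bswV K lam triv : ℂ) = if lam = 1 then 0 else 1 := by
    intro lam
    by_cases hl : lam = 1
    · rw [if_pos hl, hl, bswV_one_hom]; simp
    · rw [if_neg hl, bswV_triv K hl]; simp
  set S : IrrCharacter G → ℂ := fun χ => ∑ lam : K →* ℂˣ, (bswV K lam χ : ℂ) with hS
  have hStriv : S triv = k - 1 := by
    rw [hS]
    simp only
    have : ∀ lam : K →* ℂˣ, (bswV K lam triv : ℂ) = 1 - (if lam = 1 then 1 else 0) := by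
      intro lam
      rw [hvT]
      by_cases hl : lam = 1
      · rw [if_pos hl, if_pos hl]; ring
      · rw [if_neg hl, if_neg hl]; ring
    rw [Finset.sum_congr rfl (fun lam _ => this lam), Finset.sum_sub_distrib, Finset.sum_const,
      Finset.sum_ite_eq', if_pos (Finset.mem_univ _), nsmul_eq_mul, hcardL]
    ring
  have hSX : S X = e * (k - 1) := by
    rw [hS]
    simp only
    have : ∀ lam : K →* ℂˣ, (bswV K lam X : ℂ) = e - (if lam = 1 then e else 0) := by
      intro lam
      rw [hvX]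
      by_cases hl : lam = 1
      · rw [if_pos hl, if_pos hl]; ring
      · rw [if_neg hl, if_neg hl]; ring
    rw [Finset.sum_congr rfl (fun lam _ => this lam), Finset.sum_sub_distrib, Finset.sum_const,
      Finset.sum_ite_eq', if_pos (Finset.mem_univ _), nsmul_eq_mul, hcardL]
    ring
  -- `X(t) = ε`
  have hXt' : (X : G → ℂ) t = e := by
    have htK1 : (⟨t, h.htK⟩ : K) ≠ 1 :=
      fun e' => bsw_ne_one_of_order_two h.ht (congrArg Subtype.val e')
    have h1 := bsw_irr_apply h X ⟨t, h.htK⟩ htK1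
    have h2 := Cfsg.Agent.Helper82.excHom_sum_dual (bsw_comm h) (⟨t, h.htK⟩ : K)
    rw [if_neg htK1] at h2
    have h3 : ∀ lam : K →* ℂˣ, (bswV K lam X : ℂ) * ((lam ⟨t, h.htK⟩ : ℂˣ) : ℂ) =
        e * ((lam ⟨t, h.htK⟩ : ℂˣ) : ℂ) - (if lam = 1 then e else 0) := by
      intro lam
      rw [hvX]
      by_cases hl : lam = 1
      · rw [if_pos hl, if_pos hl, hl]; simp
      · rw [if_neg hl, if_neg hl]; ring
    rw [Finset.sum_congr rfl (fun lam _ => h3 lam), Finset.sum_sub_distrib, ← Finset.mul_sum, h2,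
      Finset.sum_ite_eq', if_pos (Finset.mem_univ _)] at h1
    rw [h1]; ring
  -- vanishing
  have hS0 : ∑ χ : IrrCharacter G, S χ * conj ((χ : G → ℂ) g) = 0 := by
    rw [hS]
    simp only [Finset.sum_mul]
    rw [Finset.sum_comm]
    apply Finset.sum_eq_zero
    intro lam _
    have h1 := bswV_vanish K lam hg
    have h2 := congrArg (starRingEnd ℂ) h1
    rw [map_sum, map_zero] at h2
    rw [← h2]
    apply Finset.sum_congr rfl
    intro χ _
    rw [map_mul, map_intCast]
  -- the terms of the class sum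
  set c : ℂ := conj ((X : G → ℂ) g) with hc
  set τ : IrrCharacter G → ℂ := fun χ =>
    (χ : G → ℂ) t * (χ : G → ℂ) t * conj ((χ : G → ℂ) g) / (χ : G → ℂ) 1 with hτdef
  set f : IrrCharacter G → ℂ := fun χ => -e * S χ * conj ((χ : G → ℂ) g) / (k + e) with hfdef
  have hτf : ∀ χ : IrrCharacter G, χ ≠ triv → χ ≠ X → τ χ = f χ := by
    intro χ h1 h2
    have h3 := h5 χ h1 h2
    have hχ1 : (χ : G → ℂ) 1 ≠ 0 := Cfsg.Agent.Helper80.irr_one_ne_zero χ
    rw [hτdef, hfdef]
    simp only
    rw [div_eq_div_iff hχ1 hke]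
    have h3' : (χ : G → ℂ) t * (χ : G → ℂ) t * (k + e) = -e * S χ * (χ : G → ℂ) 1 := h3
    linear_combination conj ((χ : G → ℂ) g) * h3'
  have hf0 : ∑ χ : IrrCharacter G, f χ = 0 := by
    have : ∀ χ : IrrCharacter G, f χ = (-e / (k + e)) * (S χ * conj ((χ : G → ℂ) g)) := by
      intro χ
      rw [hfdef]
      simp only
      ring
    rw [Finset.sum_congr rfl (fun χ _ => this χ), ← Finset.mul_sum, hS0, mul_zero]
  have hT : ∑ χ : IrrCharacter G, τ χ = (τ triv - f triv) + (τ X - f X) := by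
    have : ∀ χ : IrrCharacter G, τ χ = f χ + (if χ = triv then τ triv - f triv else 0) +
        (if χ = X then τ X - f X else 0) := by
      intro χ
      by_cases h1 : χ = triv
      · rw [h1, if_pos rfl, if_neg (Ne.symm hXt)]; ring
      · by_cases h2 : χ = X
        · rw [h2, if_neg hXt, if_pos rfl]; ring
        · rw [if_neg h1, if_neg h2, hτf χ h1 h2]; ring
    rw [Finset.sum_congr rfl (fun χ _ => this χ), Finset.sum_add_distrib, Finset.sum_add_distrib,
      Finset.sum_ite_eq', Finset.sum_ite_eq', if_pos (Finset.mem_univ _),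
      if_pos (Finset.mem_univ _), hf0]
    ring
  have hτtriv : τ triv = 1 := by
    rw [hτdef]
    simp only [htriv_apply]
    simp
  have hftriv : f triv = -e * (k - 1) / (k + e) := by
    rw [hfdef]
    simp only [htriv_apply]
    rw [hStriv]
    simp
  have hτX : τ X = e * e * c / (2 * k + e) := by
    rw [hτdef]
    simp only
    rw [hXt', hX1]
  have hfX : f X = -e * (e * (k - 1)) * c / (k + e) := by
    rw [hfdef]
    simp only
    rw [hSX]
  -- the number of involutions
  set N : ℂ := (Nat.card {x : G // IsConj t x} : ℂ) with hN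
  have hG1 : N * (2 * k) = (Nat.card G : ℂ) := by
    have := bsw_card_G h
    rw [hN, hk]
    exact_mod_cast this
  have hG2 : (Nat.card G : ℂ) = 2 * k * (2 * k + e) * (k + e) := by
    have := congrArg (Int.cast : ℤ → ℂ) hcard
    push_cast at this
    rw [hk, he]
    exact this
  have hNval : N = (2 * k + e) * (k + e) := by
    have h2k : (2 * k) ≠ 0 := mul_ne_zero two_ne_zero hk0
    apply mul_right_cancel₀ h2k
    rw [hG1, hG2]; ring
  have hA := bswA_eq h g
  rw [← hN, ← hk] at hA
  have hA' : (bswA g : ℂ) = N / (2 * k) * ∑ χ : IrrCharacter G, τ χ := hA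
  rw [hT, hτtriv, hftriv, hτX, hfX, hNval] at hA'
  have hreal : conj (bswA g : ℂ) = (bswA g : ℂ) := Complex.conj_natCast _
  have hkconj : conj k = k := by rw [hk]; exact Complex.conj_natCast _
  have hcc : conj c = (X : G → ℂ) g := by rw [hc]; exact Complex.conj_conj _
  rcases hε with h1 | h1
  · -- ε = 1
    have he1 : e = 1 := by rw [he, h1]; simp
    rw [he1] at hA'
    have hA2 : (bswA g : ℂ) = 2 * k + 1 + k * c := by
      rw [hA']
      have hk1p' : (1 : ℂ) + k ≠ 0 := by rw [add_comm]; exact hk1p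
      have h2k1p' : (1 : ℂ) + 2 * k ≠ 0 := by rw [add_comm]; exact h2k1p
      have h2k : (2 : ℂ) * k ≠ 0 := mul_ne_zero two_ne_zero hk0
      rw [div_mul_eq_mul_div, div_eq_iff h2k]
      have e1 : -1 * (k - 1) / (k + 1) = -(k - 1) / (k + 1) := by ring
      have e2 : 1 * 1 * c / (2 * k + 1) = c / (2 * k + 1) := by ring
      have e3 : -1 * (1 * (k - 1)) * c / (k + 1) = -((k - 1) * c) / (k + 1) := by ring
      rw [e1, e2, e3]
      have e4 : (2 * k + 1) * (k + 1) * (1 - -(k - 1) / (k + 1) +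
          (c / (2 * k + 1) - -((k - 1) * c) / (k + 1))) =
          (2 * k + 1) * ((k + 1) - (-(k - 1) / (k + 1)) * (k + 1)) +
          ((k + 1) * (c / (2 * k + 1) * (2 * k + 1)) -
            (2 * k + 1) * (-((k - 1) * c) / (k + 1) * (k + 1))) := by ring
      rw [e4, div_mul_cancel₀ _ hk1p, div_mul_cancel₀ _ h2k1p, div_mul_cancel₀ _ hk1p]
      ring
    have hreal2 : k * conj c = k * c := by
      have := congrArg (starRingEnd ℂ) hA2
      rw [hreal, map_add, map_add, map_mul, map_mul, hkconj, map_one, map_ofNat] at this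
      linear_combination hA2 - this
    have hcX : (X : G → ℂ) g = c := by
      rw [← hcc]; exact mul_left_cancel₀ hk0 hreal2
    rw [if_pos h1, hA2, hcX, he1]
    ring
  · -- ε = -1
    have he1 : e = -1 := by rw [he, h1]; simp
    rw [he1] at hA'
    have hA2 : (bswA g : ℂ) = (k - 1) * c := by
      rw [hA']
      have h2k : (2 : ℂ) * k ≠ 0 := mul_ne_zero two_ne_zero hk0
      rw [div_mul_eq_mul_div, div_eq_iff h2k]
      have e0 : k + -1 = k - 1 := by ring
      have e0' : 2 * k + -1 = 2 * k - 1 := by ring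
      rw [e0, e0']
      have e1 : -(-1 : ℂ) * (k - 1) / (k - 1) = (k - 1) / (k - 1) := by ring
      have e2 : (-1 : ℂ) * -1 * c / (2 * k - 1) = c / (2 * k - 1) := by ring
      have e3 : -(-1 : ℂ) * (-1 * (k - 1)) * c / (k - 1) = -((k - 1) * c) / (k - 1) := by ring
      rw [e1, e2, e3]
      have e4 : (2 * k - 1) * (k - 1) * (1 - (k - 1) / (k - 1) +
          (c / (2 * k - 1) - -((k - 1) * c) / (k - 1))) =
          (2 * k - 1) * ((k - 1) - ((k - 1) / (k - 1)) * (k - 1)) +
          ((k - 1) * (c / (2 * k - 1) * (2 * k - 1)) -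
            (2 * k - 1) * (-((k - 1) * c) / (k - 1) * (k - 1))) := by ring
      rw [e4, div_mul_cancel₀ _ hk1m, div_mul_cancel₀ _ h2k1m, div_mul_cancel₀ _ hk1m]
      ring
    have hreal2 : (k - 1) * conj c = (k - 1) * c := by
      have := congrArg (starRingEnd ℂ) hA2
      rw [hreal, map_mul, map_sub, hkconj, map_one] at this
      linear_combination hA2 - this
    have hcX : (X : G → ℂ) g = c := by
      rw [← hcc]; exact mul_left_cancel₀ hk1m hreal2
    have hne : ¬ ((-1 : ℤ) = 1) := by norm_num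
    rw [h1, if_neg hne, hA2, hcX, he1]
    ring

end Cfsg.Agent.Helper2
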