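import Cfsg.Agent.Helper25.Bsw4

set_option autoImplicit false

/-! PIECE R0 of CALL S3282 (helper25, Brauer–Suzuki–Wall): the abelian group `K` has exactly one
non-trivial real linear character. -/

namespace Cfsg.Agent.Helper2

open Cfsg.Agent.Helper25 Subgroup Cfsg
open scoped ComplexConjugate

theorem bsw_exists_real {G : Type*} [Group G] [Finite G] {t s : G} {K : Subgroup G}
    (h : BswHyp t s K) :
    ∃ l0 : K →* ℂˣ, l0 ≠ 1 ∧ l0⁻¹ = l0 ∧ ∀ l : K →* ℂˣ, l ≠ 1 → l⁻¹ = l → l = l0 := by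
  classical
  have : Fintype K := Fintype.ofFinite K
  have : Finite (K →* ℂˣ) := Cfsg.Agent.Helper80.finite_hom
  have : Fintype (K →* ℂˣ) := Fintype.ofFinite _
  have hcomm : ∀ x y : K, x * y = y * x := fun x y => Subtype.ext (h.hKab x x.2 y y.2)
  have hK0 : (Fintype.card K : ℂ) ≠ 0 := by exact_mod_cast Fintype.card_ne_zero
  have h1 : ∀ x : K, ∑ lam : K →* ℂˣ, ((lam (x * x) : ℂˣ) : ℂ)
      = if x * x = 1 then (Fintype.card K : ℂ) else 0 := fun x =>
    Cfsg.Agent.Helper82.excHom_sum_dual hcomm (x * x)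
  have h2 : ∀ lam : K →* ℂˣ, ∑ x : K, ((lam (x * x) : ℂˣ) : ℂ)
      = if lam = lam⁻¹ then (Fintype.card K : ℂ) else 0 := by
    intro lam
    rw [← Cfsg.Agent.Helper80.hom_orthogonality lam lam⁻¹]
    apply Finset.sum_congr rfl
    intro x _
    rw [Cfsg.Agent.Helper79.conj_hom_apply, map_mul, Units.val_mul]
    congr 2
    simp
  -- the elements of `K` with `x * x = 1`
  let tK : K := ⟨t, h.htK⟩
  have htK1 : tK ≠ 1 := by
    intro e
    exact bsw_ne_one_of_order_two h.ht (congrArg Subtype.val e)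
  have hsq : (Finset.univ.filter (fun x : K => x * x = 1)) = {1, tK} := by
    ext x
    simp only [Finset.mem_filter, Finset.mem_univ, true_and, Finset.mem_insert,
      Finset.mem_singleton]
    constructor
    · intro hx
      by_cases hx1 : x = 1
      · exact Or.inl hx1
      · right
        have hx1' : (x : G) ≠ 1 := fun e => hx1 (Subtype.ext e)
        have hx2 : (x : G) * (x : G) = 1 := congrArg Subtype.val hx
        exact Subtype.ext (h.eq_t_of_order_two x.2 (bsw_order_two_of_sq hx1' hx2))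
    · rintro (rfl | rfl)
      · simp
      · exact Subtype.ext h.t_sq
  have hcard1 : (Finset.univ.filter (fun x : K => x * x = 1)).card = 2 := by
    rw [hsq, Finset.card_insert_of_notMem (by simpa using htK1.symm), Finset.card_singleton]
  -- double counting
  have hdc : ∑ x : K, ∑ lam : K →* ℂˣ, ((lam (x * x) : ℂˣ) : ℂ)
      = ∑ lam : K →* ℂˣ, ∑ x : K, ((lam (x * x) : ℂˣ) : ℂ) := Finset.sum_comm
  simp_rw [h1, h2] at hdc
  rw [← Finset.sum_filter, ← Finset.sum_filter, Finset.sum_const, Finset.sum_const, hcard1,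
    nsmul_eq_mul, nsmul_eq_mul] at hdc
  have hcard2 : (Finset.univ.filter (fun lam : K →* ℂˣ => lam = lam⁻¹)).card = 2 := by
    have := mul_right_cancel₀ hK0 hdc
    exact_mod_cast this.symm
  have hone : (1 : K →* ℂˣ) ∈ Finset.univ.filter (fun lam : K →* ℂˣ => lam = lam⁻¹) := by
    rw [Finset.mem_filter]
    refine ⟨Finset.mem_univ _, ?_⟩
    ext x
    simp
  have hcard3 : ((Finset.univ.filter (fun lam : K →* ℂˣ => lam = lam⁻¹)).erase 1).card = 1 := by
    rw [Finset.card_erase_of_mem hone, hcard2]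
  obtain ⟨l0, hl0⟩ := Finset.card_eq_one.1 hcard3
  have hl0mem : l0 ∈ (Finset.univ.filter (fun lam : K →* ℂˣ => lam = lam⁻¹)).erase 1 := by
    rw [hl0]; exact Finset.mem_singleton_self _
  rw [Finset.mem_erase, Finset.mem_filter] at hl0mem
  refine ⟨l0, hl0mem.1, hl0mem.2.2.symm, ?_⟩
  intro l hl1 hl
  have : l ∈ (Finset.univ.filter (fun lam : K →* ℂˣ => lam = lam⁻¹)).erase 1 := by
    rw [Finset.mem_erase, Finset.mem_filter]
    exact ⟨hl1, Finset.mem_univ _, hl.symm⟩
  rw [hl0] at this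
  exact Finset.mem_singleton.1 this

end Cfsg.Agent.Helper2
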