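import Mathlib

set_option autoImplicit false

namespace Cfsg.Agent.Helper2

open Subgroup
open scoped commutatorElement

section general

variable {G : Type*} [Group G]

/-- Three subgroups lemma modulo a normal subgroup. -/
theorem ph_three (N H₁ H₂ H₃ : Subgroup G) [N.Normal]
    (h1 : ⁅⁅H₂, H₃⁆, H₁⁆ ≤ N) (h2 : ⁅⁅H₃, H₁⁆, H₂⁆ ≤ N) : ⁅⁅H₁, H₂⁆, H₃⁆ ≤ N := by
  have key : ∀ K : Subgroup G, K ≤ N ↔ K.map (QuotientGroup.mk' N) = ⊥ := by
    intro K
    rw [Subgroup.map_eq_bot_iff, QuotientGroup.ker_mk']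
  rw [key] at h1 h2 ⊢
  simp only [Subgroup.map_commutator] at h1 h2 ⊢
  exact Subgroup.commutator_commutator_eq_bot_of_rotate h1 h2

/-- Iterated commutator with the whole group. -/
def phC (X : Subgroup G) : ℕ → Subgroup G
  | 0 => X
  | (j + 1) => ⁅phC X j, (⊤ : Subgroup G)⁆

@[simp] theorem phC_zero (X : Subgroup G) : phC X 0 = X := rfl

theorem phC_succ (X : Subgroup G) (j : ℕ) :
    phC X (j + 1) = ⁅phC X j, (⊤ : Subgroup G)⁆ := rfl

instance phC_normal (X : Subgroup G) [hX : X.Normal] (j : ℕ) : (phC X j).Normal := by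
  induction j with
  | zero => exact hX
  | succ j ih => rw [phC_succ]; infer_instance

theorem phC_succ_le (X : Subgroup G) [X.Normal] (j : ℕ) : phC X (j + 1) ≤ phC X j := by
  rw [phC_succ]; exact Subgroup.commutator_le_left _ _

theorem phC_antitone (X : Subgroup G) [X.Normal] : Antitone (phC X) :=
  antitone_nat_of_succ_le (phC_succ_le X)

theorem phC_add (X : Subgroup G) (i j : ℕ) : phC X (i + j) = phC (phC X i) j := by
  induction j with
  | zero => rfl
  | succ j ih => rw [← add_assoc, phC_succ, ih, phC_succ]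

theorem phC_mono {X Y : Subgroup G} (h : X ≤ Y) (j : ℕ) : phC X j ≤ phC Y j := by
  induction j with
  | zero => exact h
  | succ j ih => exact Subgroup.commutator_mono ih le_rfl

theorem phC_top_eq (n : ℕ) :
    phC (⊤ : Subgroup G) n = (⊤ : Subgroup G).lowerCentralSeries n := by
  induction n with
  | zero => rfl
  | succ n ih => rw [phC_succ, ih]; rfl

theorem ph_comm_le (X : Subgroup G) [X.Normal] (r : ℕ) :
    ⁅X, phC (⊤ : Subgroup G) r⁆ ≤ phC X (r + 1) := by
  induction r generalizing X with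
  | zero => exact le_rfl
  | succ r ih =>
    rw [phC_succ (⊤ : Subgroup G) r, Subgroup.commutator_comm]
    apply ph_three (phC X (r + 1 + 1)) (phC ⊤ r) ⊤ X
    · rw [Subgroup.commutator_comm ⊤ X]
      have h := ih (phC X 1)
      rw [← phC_add] at h
      have e : 1 + (r + 1) = r + 1 + 1 := by omega
      rw [e] at h
      exact h
    · exact Subgroup.commutator_mono (ih X) le_rfl

theorem ph_lcs (a b : ℕ) :
    ⁅phC (⊤ : Subgroup G) a, phC (⊤ : Subgroup G) b⁆ ≤ phC (⊤ : Subgroup G) (a + b + 1) := by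
  have h := ph_comm_le (phC (⊤ : Subgroup G) a) b
  rw [← phC_add] at h
  exact h

theorem ph_comm_closure_left (D : Subgroup G) [D.Normal] (S : Set G) (t : G)
    (h : ∀ s ∈ S, ⁅s, t⁆ ∈ D) : ∀ g ∈ Subgroup.closure S, ⁅g, t⁆ ∈ D := by
  intro g hg
  induction hg using Subgroup.closure_induction with
  | mem x hx => exact h x hx
  | one => simp
  | mul x y _ _ hx hy =>
    have e : ⁅x * y, t⁆ = x * ⁅y, t⁆ * x⁻¹ * ⁅x, t⁆ := by
      simp only [commutatorElement_def]; group
    rw [e]
    exact D.mul_mem (Subgroup.Normal.conj_mem inferInstance _ hy x) hx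
  | inv x _ hx =>
    have e : ⁅x⁻¹, t⁆ = x⁻¹ * (⁅x, t⁆)⁻¹ * x⁻¹⁻¹ := by
      simp only [commutatorElement_def]; group
    rw [e]
    exact Subgroup.Normal.conj_mem inferInstance _ (D.inv_mem hx) x⁻¹

theorem ph_comm_closure_le (D : Subgroup G) [D.Normal] (S T : Set G)
    (h : ∀ s ∈ S, ∀ t ∈ T, ⁅s, t⁆ ∈ D) :
    ⁅Subgroup.closure S, Subgroup.closure T⁆ ≤ D := by
  rw [Subgroup.commutator_le]
  intro g₁ hg₁ g₂ hg₂
  have h1 : ∀ t ∈ T, ⁅t, g₁⁆ ∈ D := by
    intro t ht
    have := ph_comm_closure_left D S t (fun s hs => h s hs t ht) g₁ hg₁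
    rw [← commutatorElement_inv]
    exact D.inv_mem this
  have h2 := ph_comm_closure_left D T g₁ h1 g₂ hg₂
  rw [← commutatorElement_inv]
  exact D.inv_mem h2

theorem ph_normal_of_comm_le (H : Subgroup G) (h : ⁅H, (⊤ : Subgroup G)⁆ ≤ H) : H.Normal := by
  constructor
  intro n hn g
  have h1 : ⁅n, g⁆ ∈ H := h (Subgroup.commutator_mem_commutator hn (Subgroup.mem_top _))
  have e : g * n * g⁻¹ = (⁅n, g⁆)⁻¹ * n := by
    simp only [commutatorElement_def]; group
  rw [e]
  exact H.mul_mem (H.inv_mem h1) hn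

theorem ph_cyc_comm (N U : Subgroup G) [N.Normal] [U.Normal] (hU : U ≤ N) (a : G) (ha : a ∈ N)
    (hgen : N ≤ Subgroup.closure {a} ⊔ U) : ⁅N, N⁆ ≤ ⁅N, U⁆ := by
  have hN : N ≤ Subgroup.closure ({a} ∪ (U : Set G)) := by
    rw [Subgroup.closure_union, Subgroup.closure_eq]; exact hgen
  refine le_trans (Subgroup.commutator_mono hN hN) ?_
  apply ph_comm_closure_le
  intro s hs t ht
  rcases hs with hs | hs <;> rcases ht with ht | ht
  · rw [Set.mem_singleton_iff] at hs ht; subst hs; subst ht; simp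
  · rw [Set.mem_singleton_iff] at hs; subst hs
    exact Subgroup.commutator_mem_commutator ha ht
  · rw [Set.mem_singleton_iff] at ht; subst ht
    rw [← commutatorElement_inv]
    exact Subgroup.inv_mem _ (Subgroup.commutator_mem_commutator ha hs)
  · exact Subgroup.commutator_mem_commutator (hU hs) ht

theorem ph_K (N : Subgroup G) [N.Normal] (c : ℕ) (hN : N ≤ phC (⊤ : Subgroup G) c) (a b : G)
    (ha : a ∈ N) (hb : b ∈ N) (hgen : N ≤ Subgroup.closure {a, b} ⊔ ⁅N, (⊤ : Subgroup G)⁆) :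
    ⁅⁅N, N⁆, ⁅N, N⁆⁆ ≤ phC (⊤ : Subgroup G) (4 * c + 4) := by
  set U : Subgroup G := ⁅N, (⊤ : Subgroup G)⁆ with hUdef
  have hU1 : U ≤ phC (⊤ : Subgroup G) (c + 1) := Subgroup.commutator_mono hN le_rfl
  have hUN : U ≤ N := Subgroup.commutator_le_left _ _
  set Γ : Subgroup G := phC (⊤ : Subgroup G) (2 * c + 2) with hΓ
  have hcc : ⁅a, b⁆ ∈ phC (⊤ : Subgroup G) (2 * c + 1) := by
    have h1 : ⁅a, b⁆ ∈ ⁅phC (⊤ : Subgroup G) c, phC (⊤ : Subgroup G) c⁆ :=
      Subgroup.commutator_mem_commutator (hN ha) (hN hb)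
    have h2 := ph_lcs (G := G) c c h1
    have e : c + c + 1 = 2 * c + 1 := by omega
    rw [e] at h2; exact h2
  have hΓle : Γ ≤ phC (⊤ : Subgroup G) (2 * c + 1) := phC_succ_le _ _
  set S₂ : Subgroup G := Subgroup.closure ({⁅a, b⁆} ∪ (Γ : Set G)) with hS₂
  have hS₂le : S₂ ≤ phC (⊤ : Subgroup G) (2 * c + 1) := by
    rw [hS₂, Subgroup.closure_le]
    rintro x (hx | hx)
    · rw [Set.mem_singleton_iff] at hx; subst hx; exact hcc
    · exact hΓle hx
  have hΓS : Γ ≤ S₂ := fun x hx => Subgroup.subset_closure (Or.inr hx)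
  have hS₂n : S₂.Normal := by
    apply ph_normal_of_comm_le
    refine le_trans (Subgroup.commutator_mono hS₂le le_rfl) ?_
    exact hΓS
  -- all generators of N lie in γ_c, those of U in γ_{c+1}
  have hmix1 : ∀ x ∈ N, ∀ u ∈ U, ⁅x, u⁆ ∈ Γ := by
    intro x hx u hu
    have h1 : ⁅x, u⁆ ∈ ⁅phC (⊤ : Subgroup G) c, phC (⊤ : Subgroup G) (c + 1)⁆ :=
      Subgroup.commutator_mem_commutator (hN hx) (hU1 hu)
    have h2 := ph_lcs (G := G) c (c + 1) h1
    have e : c + (c + 1) + 1 = 2 * c + 2 := by omega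
    rw [e] at h2; exact h2
  have hmix2 : ∀ u ∈ U, ∀ x ∈ N, ⁅u, x⁆ ∈ Γ := by
    intro u hu x hx
    rw [← commutatorElement_inv]
    exact Γ.inv_mem (hmix1 x hx u hu)
  have step1 : ⁅N, N⁆ ≤ S₂ := by
    have hN' : N ≤ Subgroup.closure ({a, b} ∪ (U : Set G)) := by
      rw [Subgroup.closure_union, Subgroup.closure_eq]; exact hgen
    refine le_trans (Subgroup.commutator_mono hN' hN') ?_
    apply ph_comm_closure_le
    intro s hs t ht
    have hsN : s ∈ N := by
      rcases hs with hs | hs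
      · rcases hs with hs | hs
        · rw [hs]; exact ha
        · rw [Set.mem_singleton_iff] at hs; rw [hs]; exact hb
      · exact hUN hs
    have htN : t ∈ N := by
      rcases ht with ht | ht
      · rcases ht with ht | ht
        · rw [ht]; exact ha
        · rw [Set.mem_singleton_iff] at ht; rw [ht]; exact hb
      · exact hUN ht
    rcases hs with hs | hs
    · rcases ht with ht | ht
      · rcases hs with hs | hs <;> rcases ht with ht | ht
        · rw [hs, ht]; simp
        · rw [Set.mem_singleton_iff] at ht; rw [hs, ht]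
          exact Subgroup.subset_closure (Or.inl rfl)
        · rw [Set.mem_singleton_iff] at hs; rw [hs, ht, ← commutatorElement_inv]
          exact S₂.inv_mem (Subgroup.subset_closure (Or.inl rfl))
        · rw [Set.mem_singleton_iff] at hs ht; rw [hs, ht]; simp
      · exact hΓS (hmix1 s hsN t ht)
    · exact hΓS (hmix2 s hs t htN)
  have step2 : ⁅S₂, S₂⁆ ≤ phC (⊤ : Subgroup G) (4 * c + 4) := by
    rw [hS₂]
    apply ph_comm_closure_le
    intro s hs t ht
    have hs1 : s ∈ phC (⊤ : Subgroup G) (2 * c + 1) := hS₂le (Subgroup.subset_closure hs)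
    have ht1 : t ∈ phC (⊤ : Subgroup G) (2 * c + 1) := hS₂le (Subgroup.subset_closure ht)
    rcases hs with hs | hs
    · rcases ht with ht | ht
      · rw [Set.mem_singleton_iff] at hs ht; rw [hs, ht]; simp
      · have h1 : ⁅s, t⁆ ∈ ⁅phC (⊤ : Subgroup G) (2 * c + 1), phC (⊤ : Subgroup G) (2 * c + 2)⁆ :=
          Subgroup.commutator_mem_commutator hs1 ht
        have h2 := ph_lcs (G := G) (2 * c + 1) (2 * c + 2) h1
        have e : 2 * c + 1 + (2 * c + 2) + 1 = 4 * c + 4 := by omega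
        rw [e] at h2; exact h2
    · have h1 : ⁅s, t⁆ ∈ ⁅phC (⊤ : Subgroup G) (2 * c + 2), phC (⊤ : Subgroup G) (2 * c + 1)⁆ :=
        Subgroup.commutator_mem_commutator hs ht1
      have h2 := ph_lcs (G := G) (2 * c + 2) (2 * c + 1) h1
      have e : 2 * c + 2 + (2 * c + 1) + 1 = 4 * c + 4 := by omega
      rw [e] at h2; exact h2
  exact le_trans (Subgroup.commutator_mono step1 step1) step2

theorem ph_comm_lt (hnil : Group.IsNilpotent G) (Y : Subgroup G) [Y.Normal] (hY : Y ≠ ⊥) :
    ⁅Y, (⊤ : Subgroup G)⁆ < Y := by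
  refine lt_of_le_of_ne (Subgroup.commutator_le_left _ _) ?_
  intro heq
  apply hY
  have hle : ∀ n : ℕ, Y ≤ phC (⊤ : Subgroup G) n := by
    intro n
    induction n with
    | zero => exact le_top
    | succ n ih =>
      rw [phC_succ]
      calc Y = ⁅Y, (⊤ : Subgroup G)⁆ := heq.symm
        _ ≤ ⁅phC (⊤ : Subgroup G) n, (⊤ : Subgroup G)⁆ := Subgroup.commutator_mono ih le_rfl
  obtain ⟨n, hn⟩ := Subgroup.nilpotent_iff_lowerCentralSeries.mp hnil
  have := hle n
  rw [phC_top_eq, hn] at this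
  exact le_bot_iff.mp this

end general

section pgroup

variable {G : Type*} [Group G] [Finite G] (p : ℕ) [hp : Fact p.Prime] (hG : IsPGroup p G)

include hG

theorem ph_index_lt {A B : Subgroup G} (h : A < B) : p ≤ A.relIndex B := by
  obtain ⟨n, hn⟩ := (hG.to_subgroup B).index (A.subgroupOf B)
  have h1 : A.relIndex B = p ^ n := hn
  have h2 : A.relIndex B ≠ 1 := by
    intro h'
    rw [Subgroup.relIndex_eq_one] at h'
    exact (not_le_of_gt h) h'
  rw [h1] at h2 ⊢
  cases n with
  | zero => simp at h2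
  | succ n =>
    calc p = p ^ 1 := (pow_one p).symm
      _ ≤ p ^ (n + 1) := Nat.pow_le_pow_right hp.out.pos (by omega)

omit hG hp [Finite G] in
theorem ph_chain {A B C : Subgroup G} {i j : ℕ} (h1 : A ≤ B) (h2 : B ≤ C)
    (hi : p ^ i ≤ A.relIndex B) (hj : p ^ j ≤ B.relIndex C) : p ^ (i + j) ≤ A.relIndex C := by
  rw [← Subgroup.relIndex_mul_relIndex A B C h1 h2, pow_add]
  exact Nat.mul_le_mul hi hj

omit hG hp in
theorem ph_relIndex_anti {A B C : Subgroup G} (h : A ≤ B) : B.relIndex C ≤ A.relIndex C := by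
  apply Nat.le_of_dvd
  · have h0 : A.relIndex C ≠ 0 := by
      show (A.subgroupOf C).index ≠ 0
      exact Subgroup.index_ne_zero_of_finite
    exact Nat.pos_of_ne_zero h0
  · exact Subgroup.relIndex_dvd_of_le_left C h

theorem ph_phC_index (X : Subgroup G) [X.Normal] (j : ℕ) (h : phC X j ≠ ⊥) :
    p ^ j ≤ (phC X j).relIndex X := by
  have hnil : Group.IsNilpotent G := hG.isNilpotent
  induction j with
  | zero => simp
  | succ j ih =>
    have hj : phC X j ≠ ⊥ := by
      intro h0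
      apply h
      have := phC_succ_le X j
      rw [h0] at this
      exact le_bot_iff.mp this
    have h1 := ih hj
    have hlt : phC X (j + 1) < phC X j := ph_comm_lt hnil (phC X j) hj
    have h2 : p ^ 1 ≤ (phC X (j + 1)).relIndex (phC X j) := by
      rw [pow_one]; exact ph_index_lt p hG hlt
    have h3 := ph_chain p (le_of_lt hlt) (phC_antitone X (Nat.zero_le j)) h2 h1
    rw [add_comm] at h3
    exact h3

theorem ph_not_cyc {U N : Subgroup G} (hUN : U ≤ N)
    (h : ∀ a ∈ N, ¬ N ≤ Subgroup.closure {a} ⊔ U) : p ^ 2 ≤ U.relIndex N := by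
  have h1 := h 1 N.one_mem
  obtain ⟨a, haN, ha⟩ := SetLike.not_le_iff_exists.mp h1
  have haU : a ∉ U := fun hh => ha (le_sup_right (a := Subgroup.closure {1}) hh)
  have hUV : U < Subgroup.closure {a} ⊔ U := by
    refine lt_of_le_of_ne le_sup_right ?_
    intro heq
    apply haU
    rw [heq]
    exact le_sup_left (b := U) (Subgroup.subset_closure rfl)
  have hVN : Subgroup.closure {a} ⊔ U < N := by
    refine lt_of_le_of_ne ?_ ?_
    · refine sup_le ?_ hUN
      rw [Subgroup.closure_le]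
      intro x hx
      rw [Set.mem_singleton_iff] at hx; rw [hx]; exact haN
    · intro heq
      exact h a haN (le_of_eq heq.symm)
  have e1 : p ^ 1 ≤ U.relIndex (Subgroup.closure {a} ⊔ U) := by
    rw [pow_one]; exact ph_index_lt p hG hUV
  have e2 : p ^ 1 ≤ (Subgroup.closure {a} ⊔ U).relIndex N := by
    rw [pow_one]; exact ph_index_lt p hG hVN
  exact ph_chain p (le_of_lt hUV) (le_of_lt hVN) e1 e2

theorem ph_not_two {U N : Subgroup G} (hUN : U ≤ N)
    (h : ∀ a ∈ N, ∀ b ∈ N, ¬ N ≤ Subgroup.closure {a, b} ⊔ U) : p ^ 3 ≤ U.relIndex N := by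
  have hc : ∀ a ∈ N, ¬ N ≤ Subgroup.closure {a} ⊔ U := by
    intro a ha hle
    apply h a ha a ha
    rw [Set.pair_eq_singleton]
    exact hle
  have h1 := hc 1 N.one_mem
  obtain ⟨a, haN, ha⟩ := SetLike.not_le_iff_exists.mp h1
  have haU : a ∉ U := fun hh => ha (le_sup_right (a := Subgroup.closure {1}) hh)
  have hUV : U < Subgroup.closure {a} ⊔ U := by
    refine lt_of_le_of_ne le_sup_right ?_
    intro heq
    apply haU
    rw [heq]
    exact le_sup_left (b := U) (Subgroup.subset_closure rfl)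
  have hVN' : Subgroup.closure {a} ⊔ U ≤ N := by
    refine sup_le ?_ hUN
    rw [Subgroup.closure_le]
    intro x hx
    rw [Set.mem_singleton_iff] at hx; rw [hx]; exact haN
  obtain ⟨b, hbN, hb⟩ := SetLike.not_le_iff_exists.mp (hc a haN)
  have hVW : Subgroup.closure {a} ⊔ U < Subgroup.closure {a, b} ⊔ U := by
    refine lt_of_le_of_ne ?_ ?_
    · refine sup_le_sup_right ?_ U
      apply Subgroup.closure_mono
      intro x hx
      rw [Set.mem_singleton_iff] at hx; rw [hx]; exact Set.mem_insert _ _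
    · intro heq
      apply hb
      rw [heq]
      exact le_sup_left (b := U) (Subgroup.subset_closure (Set.mem_insert_of_mem _ rfl))
  have hWN : Subgroup.closure {a, b} ⊔ U < N := by
    refine lt_of_le_of_ne ?_ ?_
    · refine sup_le ?_ hUN
      rw [Subgroup.closure_le]
      intro x hx
      rcases hx with hx | hx
      · rw [hx]; exact haN
      · rw [Set.mem_singleton_iff] at hx; rw [hx]; exact hbN
    · intro heq
      exact h a haN b hbN (le_of_eq heq.symm)
  have e1 : p ^ 1 ≤ U.relIndex (Subgroup.closure {a} ⊔ U) := by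
    rw [pow_one]; exact ph_index_lt p hG hUV
  have e2 : p ^ 1 ≤ (Subgroup.closure {a} ⊔ U).relIndex (Subgroup.closure {a, b} ⊔ U) := by
    rw [pow_one]; exact ph_index_lt p hG hVW
  have e3 : p ^ 1 ≤ (Subgroup.closure {a, b} ⊔ U).relIndex N := by
    rw [pow_one]; exact ph_index_lt p hG hWN
  have e12 := ph_chain p (le_of_lt hUV) (le_of_lt hVW) e1 e2
  exact ph_chain p (le_trans (le_of_lt hUV) (le_of_lt hVW)) (le_of_lt hWN) e12 e3

theorem ph_hall_aux (N : Subgroup G) [N.Normal] (c : ℕ) (hN : N ≤ phC (⊤ : Subgroup G) c)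
    (hne : ⁅N, N⁆ ≠ ⊥) (e : ℕ) (he : p ^ e ≤ (⁅N, (⊤ : Subgroup G)⁆).relIndex N) :
    p ^ (c + e) ≤ (⁅N, N⁆).relIndex N := by
  have h1 : ⁅N, N⁆ ≤ phC N (c + 1) :=
    le_trans (Subgroup.commutator_mono le_rfl hN) (ph_comm_le N c)
  have h2 : phC N (c + 1) = phC (phC N 1) c := by
    rw [← phC_add, add_comm]
  rw [h2] at h1
  have hne' : phC (phC N 1) c ≠ ⊥ := by
    intro h0
    apply hne
    rw [h0] at h1
    exact le_bot_iff.mp h1
  have h3 := ph_phC_index p hG (phC N 1) c hne'
  have hUN : phC N 1 ≤ N := phC_succ_le N 0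
  have h4 := ph_chain p (phC_antitone (phC N 1) (Nat.zero_le c)) hUN h3 he
  exact le_trans h4 (ph_relIndex_anti h1)

theorem ph_hall (N : Subgroup G) [N.Normal] (c : ℕ) (hN : N ≤ phC (⊤ : Subgroup G) c)
    (hne : ⁅N, N⁆ ≠ ⊥) : p ^ (c + 2) ≤ (⁅N, N⁆).relIndex N := by
  have hnil : Group.IsNilpotent G := hG.isNilpotent
  by_cases hcyc : ∃ a ∈ N, N ≤ Subgroup.closure {a} ⊔ ⁅N, (⊤ : Subgroup G)⁆
  · obtain ⟨a, ha, hgen⟩ := hcyc
    have hUN : ⁅N, (⊤ : Subgroup G)⁆ ≤ N := Subgroup.commutator_le_left _ _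
    have hU1 : ⁅N, (⊤ : Subgroup G)⁆ = phC N 1 := rfl
    have h1 : ⁅N, N⁆ ≤ ⁅N, ⁅N, (⊤ : Subgroup G)⁆⁆ := ph_cyc_comm N _ hUN a ha hgen
    have h2 : ⁅N, ⁅N, (⊤ : Subgroup G)⁆⁆ ≤ phC (phC N 1) (c + 1) := by
      rw [Subgroup.commutator_comm, hU1]
      exact le_trans (Subgroup.commutator_mono le_rfl hN) (ph_comm_le (phC N 1) c)
    have h3 : ⁅N, N⁆ ≤ phC (phC N 1) (c + 1) := le_trans h1 h2
    have hne' : phC (phC N 1) (c + 1) ≠ ⊥ := by
      intro h0
      apply hne
      rw [h0] at h3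
      exact le_bot_iff.mp h3
    have h4 := ph_phC_index p hG (phC N 1) (c + 1) hne'
    have hNne : N ≠ ⊥ := by
      intro h0
      apply hne
      rw [h0]
      exact le_bot_iff.mp (Subgroup.commutator_le_left _ _)
    have hlt : phC N 1 < N := ph_comm_lt hnil N hNne
    have h5 : p ^ 1 ≤ (phC N 1).relIndex N := by
      rw [pow_one]; exact ph_index_lt p hG hlt
    have h6 := ph_chain p (phC_antitone (phC N 1) (Nat.zero_le (c + 1))) (le_of_lt hlt) h4 h5
    exact le_trans h6 (ph_relIndex_anti h3)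
  · push Not at hcyc
    have h2 := ph_not_cyc p hG (Subgroup.commutator_le_left N (⊤ : Subgroup G)) hcyc
    exact ph_hall_aux p hG N c hN hne 2 h2

theorem ph_hall3 (N : Subgroup G) [N.Normal] (c : ℕ) (hN : N ≤ phC (⊤ : Subgroup G) c)
    (hne : ⁅N, N⁆ ≠ ⊥)
    (h3 : ∀ a ∈ N, ∀ b ∈ N, ¬ N ≤ Subgroup.closure {a, b} ⊔ ⁅N, (⊤ : Subgroup G)⁆) :
    p ^ (c + 3) ≤ (⁅N, N⁆).relIndex N := by
  have h2 := ph_not_two p hG (Subgroup.commutator_le_left N (⊤ : Subgroup G)) h3
  exact ph_hall_aux p hG N c hN hne 3 h2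

omit hG hp [Finite G] in
theorem ph_two_pow (t : ℕ) : min t 2 + 1 ≤ 2 ^ t := by
  have h := Nat.lt_two_pow_self (n := t)
  have h2 : min t 2 ≤ t := min_le_left _ _
  omega

theorem ph_main (k : ℕ) (hk : derivedSeries G k ≠ ⊥) :
    ∀ t j c : ℕ, j + t = k → derivedSeries G j ≤ phC (⊤ : Subgroup G) c →
      ∃ e : ℕ, (c + 1) * 2 ^ t + 2 * t ≤ e + (c + 1) + min t 2 ∧
        p ^ e ≤ (derivedSeries G k).relIndex (derivedSeries G j) := by
  intro t
  induction t using Nat.strong_induction_on with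
  | _ t ih =>
    intro j c hjt hw
    rcases t with _ | t'
    · have hjk : j = k := by omega
      subst hjk
      exact ⟨0, by simp, by simp⟩
    · have hkM : derivedSeries G k ≤ derivedSeries G (j + 1) :=
        derivedSeries_antitone (G := G) (by omega)
      have hMN : derivedSeries G (j + 1) ≤ derivedSeries G j :=
        derivedSeries_antitone (G := G) (by omega)
      have hM : derivedSeries G (j + 1) ≠ ⊥ := by
        intro h0
        apply hk
        rw [h0] at hkM
        exact le_bot_iff.mp hkM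
      have hMeq : derivedSeries G (j + 1) = ⁅derivedSeries G j, derivedSeries G j⁆ :=
        derivedSeries_succ G j
      have hMw : derivedSeries G (j + 1) ≤ phC (⊤ : Subgroup G) (2 * c + 1) := by
        rw [hMeq]
        refine le_trans (Subgroup.commutator_mono hw hw) ?_
        have h := ph_lcs (G := G) c c
        have e : c + c + 1 = 2 * c + 1 := by omega
        rw [e] at h
        exact h
      have hne : ⁅derivedSeries G j, derivedSeries G j⁆ ≠ ⊥ := by
        rw [← hMeq]; exact hM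
      by_cases htwo : ∃ a ∈ derivedSeries G j, ∃ b ∈ derivedSeries G j,
          derivedSeries G j ≤ Subgroup.closure {a, b} ⊔ ⁅derivedSeries G j, (⊤ : Subgroup G)⁆
      · obtain ⟨a, ha, b, hb, hgen⟩ := htwo
        have h1 : p ^ (c + 2) ≤ (derivedSeries G (j + 1)).relIndex (derivedSeries G j) := by
          rw [hMeq]; exact ph_hall p hG _ c hw hne
        rcases t' with _ | t''
        · have hjk : j + 1 = k := by omega
          subst hjk
          refine ⟨c + 2, ?_, h1⟩
          simp only [zero_add, pow_one]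
          omega
        · have hkM2 : derivedSeries G k ≤ derivedSeries G (j + 1 + 1) :=
            derivedSeries_antitone (G := G) (by omega)
          have hM2N : derivedSeries G (j + 1 + 1) ≤ derivedSeries G (j + 1) :=
            derivedSeries_antitone (G := G) (by omega)
          have hM2 : derivedSeries G (j + 1 + 1) ≠ ⊥ := by
            intro h0
            apply hk
            rw [h0] at hkM2
            exact le_bot_iff.mp hkM2
          have hM2eq : derivedSeries G (j + 1 + 1) =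
              ⁅derivedSeries G (j + 1), derivedSeries G (j + 1)⁆ := derivedSeries_succ G (j + 1)
          have h2 : p ^ (2 * c + 1 + 2) ≤
              (derivedSeries G (j + 1 + 1)).relIndex (derivedSeries G (j + 1)) := by
            rw [hM2eq]
            exact ph_hall p hG _ (2 * c + 1) hMw (by rw [← hM2eq]; exact hM2)
          have hK : derivedSeries G (j + 1 + 1) ≤ phC (⊤ : Subgroup G) (4 * c + 4) := by
            rw [hM2eq, hMeq]
            exact ph_K _ c hw a b ha hb hgen
          obtain ⟨e₃, he₃, hidx₃⟩ := ih t'' (by omega) (j + 1 + 1) (4 * c + 4) (by omega) hK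
          have hch1 := ph_chain p hkM2 hM2N hidx₃ h2
          have hch2 := ph_chain p (le_trans hkM2 hM2N) hMN hch1 h1
          refine ⟨e₃ + (2 * c + 1 + 2) + (c + 2), ?_, hch2⟩
          have hpow := ph_two_pow t''
          have e1 : (2 : ℕ) ^ (t'' + 1 + 1) = 4 * 2 ^ t'' := by ring
          have hmin : min (t'' + 1 + 1) 2 = 2 := by omega
          rw [e1, hmin]
          have he₃' : 4 * (c * 2 ^ t'') + 5 * 2 ^ t'' + 2 * t'' ≤ e₃ + (4 * c + 4 + 1) + min t'' 2 := by
            have : (4 * c + 4 + 1) * 2 ^ t'' = 4 * (c * 2 ^ t'') + 5 * 2 ^ t'' := by ring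
            rw [← this]; exact he₃
          have e2 : (c + 1) * (4 * 2 ^ t'') = 4 * (c * 2 ^ t'') + 4 * 2 ^ t'' := by ring
          rw [e2]
          omega
      · push Not at htwo
        have h3 : p ^ (c + 3) ≤ (derivedSeries G (j + 1)).relIndex (derivedSeries G j) := by
          rw [hMeq]; exact ph_hall3 p hG _ c hw hne htwo
        obtain ⟨e₂, he₂, hidx₂⟩ := ih t' (by omega) (j + 1) (2 * c + 1) (by omega) hMw
        refine ⟨e₂ + (c + 3), ?_, ph_chain p hkM hMN hidx₂ h3⟩
        have e1 : (2 : ℕ) ^ (t' + 1) = 2 * 2 ^ t' := by ring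
        have he₂' : 2 * (c * 2 ^ t') + 2 * 2 ^ t' + 2 * t' ≤ e₂ + (2 * c + 1 + 1) + min t' 2 := by
          have : (2 * c + 1 + 1) * 2 ^ t' = 2 * (c * 2 ^ t') + 2 * 2 ^ t' := by ring
          rw [← this]; exact he₂
        have e2 : (c + 1) * (2 * 2 ^ t') = 2 * (c * 2 ^ t') + 2 * 2 ^ t' := by ring
        rw [e1, e2]
        have hmin : min t' 2 ≤ min (t' + 1) 2 := by omega
        omega

/-- Mann's bound: a finite `p`-group of order `p ^ n` with nontrivial `k`-th derived subgroup
satisfies `2 ^ k + 2 * k ≤ n + 2`. -/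
theorem ph_mann (n k : ℕ) (hcard : Nat.card G = p ^ n) (hk : derivedSeries G k ≠ ⊥) :
    2 ^ k + 2 * k ≤ n + 2 := by
  obtain ⟨e, he, hidx⟩ := ph_main p hG k hk k 0 0 (by omega) (by simp)
  have hbot : (⊥ : Subgroup G) < derivedSeries G k := bot_lt_iff_ne_bot.mpr hk
  have h1 : p ^ 1 ≤ (⊥ : Subgroup G).relIndex (derivedSeries G k) := by
    rw [pow_one]; exact ph_index_lt p hG hbot
  have h2 := ph_chain p bot_le (derivedSeries_antitone (G := G) (Nat.zero_le k)) h1 hidx
  rw [derivedSeries_zero, Subgroup.relIndex_top_right, Subgroup.index_bot, hcard] at h2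
  have h3 : 1 + e ≤ n := (Nat.pow_le_pow_iff_right hp.out.one_lt).mp h2
  have hmin : min k 2 ≤ 2 := min_le_right _ _
  simp only [zero_add, one_mul] at he
  omega

end pgroup

end Cfsg.Agent.Helper2
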