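import Cfsg.Agent.Helper2.TateNormal
import Cfsg.Agent.Helper2.PGroup

set_option autoImplicit false

namespace Cfsg.Agent.Helper2

open Subgroup
open scoped commutatorElement

/-- Every element of a finite group is a product of an element of a given Sylow `p`-subgroup
and an element of `O^p(X)`. -/
theorem exists_mul_of_sylow_pResidual {X : Type*} [Group X] [Finite X] {p : ℕ} [hp : Fact p.Prime]
    (P : Sylow p X) (g : X) : ∃ t ∈ (P : Subgroup X), ∃ r ∈ Cfsg.pResidual p X, g = t * r := by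
  haveI := pResidual_normal p X
  have hx : g ∈ ((↑((P : Subgroup X) ⊔ Cfsg.pResidual p X) : Set X)) := by
    rw [sylow_sup_pResidual P]; exact Subgroup.mem_top g
  rw [mul_normal] at hx
  obtain ⟨t, ht, r, hr, rfl⟩ := Set.mem_mul.mp hx
  exact ⟨t, ht, r, hr, rfl⟩

/-- The quotient of a finite group by a normal subgroup containing `O^p(X)` is a `p`-group. -/
theorem isPGroup_quotient_of_pResidual_le {X : Type*} [Group X] [Finite X] {p : ℕ}
    [hp : Fact p.Prime] (N : Subgroup X) [N.Normal] (h : Cfsg.pResidual p X ≤ N) :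
    IsPGroup p (X ⧸ N) := by
  intro x
  obtain ⟨g, rfl⟩ := QuotientGroup.mk'_surjective N x
  let P : Sylow p X := default
  obtain ⟨t, ht, r, hr, rfl⟩ := exists_mul_of_sylow_pResidual P g
  obtain ⟨k, hk⟩ := P.2 ⟨t, ht⟩
  have hk' : t ^ p ^ k = 1 := by simpa using congrArg Subtype.val hk
  refine ⟨k, ?_⟩
  have h1 : QuotientGroup.mk' N r = 1 := (QuotientGroup.eq_one_iff r).mpr (h hr)
  rw [map_mul, h1, mul_one, ← map_pow, hk', map_one]

/-- **Tate's theorem** (general form): let `P ≤ H ≤ G` with `P` a Sylow `p`-subgroup of `G`.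
If `P ∩ G' ≤ H'` then `H ∩ O^p(G) ≤ O^p(H)`. -/
theorem inf_pResidual_le_map_pResidual_of_commutator_inf_le {G : Type*} [Group G] [Finite G]
    {p : ℕ} [hp : Fact p.Prime] (P : Sylow p G) (H : Subgroup G)
    (hPH : (P : Subgroup G) ≤ H) (hfoc : (P : Subgroup G) ⊓ commutator G ≤ ⁅H, H⁆) :
    H ⊓ Cfsg.pResidual p G ≤ (Cfsg.pResidual p H).map H.subtype := by
  haveI hMn := pResidual_normal p G
  haveI hK₀n := pResidual_normal p H
  let K : Subgroup H := (Cfsg.pResidual p G).subgroupOf H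
  let L : Subgroup H := Cfsg.pResidual p H ⊔ ⁅K, (⊤ : Subgroup H)⁆
  haveI hKn : K.Normal := inferInstance
  haveI hLn : L.Normal := inferInstance
  have hK₀K : Cfsg.pResidual p H ≤ K := by
    intro x hx
    exact map_pResidual_le H.subtype p ⟨x, hx, rfl⟩
  have hLK : L ≤ K := sup_le hK₀K (Subgroup.commutator_le_left K ⊤)
  let P_H : Sylow p H := P.subtype hPH
  have hP_H : (P_H : Subgroup H) = (P : Subgroup G).subgroupOf H := Sylow.coe_subtype P hPH
  have hQ : IsPGroup p (H ⧸ L) := isPGroup_quotient_of_pResidual_le L le_sup_left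
  have hKL : K ≤ L := by
    by_contra hKL
    let ρ : G →* G ⧸ Cfsg.pResidual p G := QuotientGroup.mk' (Cfsg.pResidual p G)
    let φ : (H ⧸ L) →* G ⧸ Cfsg.pResidual p G :=
      QuotientGroup.lift L (ρ.comp H.subtype) (by
        intro l hl
        have h1 : (l : G) ∈ Cfsg.pResidual p G := hLK hl
        exact (QuotientGroup.eq_one_iff _).mpr h1)
    let σ : H →* H ⧸ L := QuotientGroup.mk' L
    have hσ : ∀ u : H, φ (σ u) = ρ u := fun u => rfl
    have hrep : ∀ g : G, ∃ u : H, ρ g = ρ u := by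
      intro g
      obtain ⟨t, ht, r, hr, rfl⟩ := exists_mul_of_sylow_pResidual P g
      refine ⟨⟨t, hPH ht⟩, ?_⟩
      rw [map_mul]
      have h1 : ρ r = 1 := (QuotientGroup.eq_one_iff r).mpr hr
      rw [h1, mul_one]
    have hker : ∀ a ∈ φ.ker, ∃ k ∈ K, σ k = a := by
      intro a ha
      obtain ⟨u, rfl⟩ := QuotientGroup.mk'_surjective L a
      refine ⟨u, ?_, rfl⟩
      have h1 : ρ (u : G) = 1 := ha
      show (u : G) ∈ Cfsg.pResidual p G
      exact (QuotientGroup.eq_one_iff (u : G)).mp h1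
    have hcent : ∀ a ∈ φ.ker, ∀ x : H ⧸ L, a * x = x * a := by
      intro a ha x
      obtain ⟨k, hk, rfl⟩ := hker a ha
      obtain ⟨u, rfl⟩ := QuotientGroup.mk'_surjective L x
      show σ k * σ u = σ u * σ k
      rw [← map_mul, ← map_mul]
      apply (QuotientGroup.eq).mpr
      have e : (k * u)⁻¹ * (u * k) = ⁅k⁻¹, u⁻¹⁆⁻¹ := by
        rw [commutatorElement_def]; group
      rw [e]
      exact L.inv_mem ((le_sup_right : ⁅K, (⊤ : Subgroup H)⁆ ≤ L)
        (Subgroup.commutator_mem_commutator (K.inv_mem hk) (Subgroup.mem_top _)))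
    obtain ⟨j, hj⟩ := (hQ.to_subgroup φ.ker).exists_card_eq
    have hcop : Nat.Coprime (Nat.card φ.ker) H.index := by
      rw [hj]
      have h1 : ¬ p ∣ H.index := fun hd =>
        P.not_dvd_index (hd.trans (Subgroup.index_dvd_of_le hPH))
      exact Nat.Coprime.pow_left j ((Nat.Prime.coprime_iff_not_dvd hp.out).mpr h1)
    obtain ⟨Ψ, hΨ⟩ := exists_lift_of_central_coprime ρ φ H σ hσ
      (fun g => by obtain ⟨u, hu⟩ := hrep g; exact ⟨σ u, hu.symm⟩) hcent hcop
    have hfr : φ.ker ≤ frattini (H ⧸ L) := by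
      intro a ha
      obtain ⟨k, hk, rfl⟩ := hker a ha
      obtain ⟨t, ht, r, hr, hktr⟩ := exists_mul_of_sylow_pResidual P_H k
      have htP : (t : G) ∈ (P : Subgroup G) := by
        rw [hP_H] at ht; exact ht
      have htK : t ∈ K := by
        have e : t = k * r⁻¹ := by rw [hktr]; group
        rw [e]
        exact K.mul_mem hk (K.inv_mem (hK₀K hr))
      have h1 : (t : G) ∈ ⁅H, H⁆ := hfoc ⟨htP, sylow_inf_pResidual_le_commutator P ⟨htP, htK⟩⟩
      rw [← Subgroup.map_subtype_commutator] at h1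
      obtain ⟨t', ht', htt⟩ := h1
      have h2 : t' = t := Subtype.ext htt
      rw [h2] at ht'
      have h3 : σ t ∈ commutator (H ⧸ L) := by
        have h4 : σ t ∈ (commutator H).map σ := ⟨t, ht', rfl⟩
        rw [commutator_def, Subgroup.map_commutator] at h4
        rw [commutator_def]
        exact Subgroup.commutator_mono le_top le_top h4
      have h5 : σ k = σ t := by
        rw [hktr, map_mul]
        have h6 : σ r = 1 := (QuotientGroup.eq_one_iff r).mpr
          ((le_sup_left : Cfsg.pResidual p H ≤ L) hr)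
        rw [h6, mul_one]
      rw [h5]
      exact commutator_le_frattini_of_isPGroup hQ h3
    have hsup : Ψ.range ⊔ frattini (H ⧸ L) = ⊤ := by
      rw [eq_top_iff]
      intro x _
      obtain ⟨u, rfl⟩ := QuotientGroup.mk'_surjective L x
      have h1 : (Ψ u)⁻¹ * σ u ∈ φ.ker := by
        rw [MonoidHom.mem_ker, map_mul, map_inv, hΨ, hσ, inv_mul_cancel]
      have h2 : σ u = Ψ u * ((Ψ u)⁻¹ * σ u) := by group
      show σ u ∈ _
      rw [h2]
      exact Subgroup.mul_mem_sup ⟨(u : G), rfl⟩ (hfr h1)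
    have hsurj : Ψ.range = ⊤ := frattini_nongenerating hsup
    have hMker : Cfsg.pResidual p G ≤ Ψ.ker := by
      rw [Cfsg.pResidual, Subgroup.closure_le]
      intro g hg
      have hg' : Nat.Coprime (orderOf g) p := hg
      rw [SetLike.mem_coe, MonoidHom.mem_ker]
      obtain ⟨i, hi⟩ := hQ (Ψ g)
      have h1 : orderOf (Ψ g) ∣ p ^ i := orderOf_dvd_of_pow_eq_one hi
      have h2 : orderOf (Ψ g) ∣ orderOf g := orderOf_map_dvd Ψ g
      have h3 : Nat.Coprime (orderOf g) (p ^ i) := Nat.Coprime.pow_right i hg'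
      have h4 : orderOf (Ψ g) = 1 := Nat.eq_one_of_dvd_coprimes h3 h2 h1
      exact orderOf_eq_one_iff.mp h4
    obtain ⟨k, hkK, hkL⟩ := SetLike.not_le_iff_exists.mp hKL
    have hmem : σ k ∈ Ψ.range := hsurj ▸ Subgroup.mem_top _
    obtain ⟨g, hg⟩ := hmem
    have h1 : ρ g = 1 := by
      rw [← hΨ g, hg, hσ]
      exact (QuotientGroup.eq_one_iff _).mpr hkK
    have h2 : g ∈ Cfsg.pResidual p G := (QuotientGroup.eq_one_iff g).mp h1
    have h3 : Ψ g = 1 := hMker h2
    rw [h3] at hg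
    exact hkL ((QuotientGroup.eq_one_iff k).mp hg.symm)
  -- nilpotency of `H / O^p(H)` now gives `K ≤ O^p(H)`
  have hQ₀ : IsPGroup p (H ⧸ Cfsg.pResidual p H) :=
    isPGroup_quotient_of_pResidual_le (Cfsg.pResidual p H) le_rfl
  haveI : Group.IsNilpotent (H ⧸ Cfsg.pResidual p H) := hQ₀.isNilpotent
  have hbar : K.map (QuotientGroup.mk' (Cfsg.pResidual p H)) ≤
      ⁅K.map (QuotientGroup.mk' (Cfsg.pResidual p H)), (⊤ : Subgroup (H ⧸ Cfsg.pResidual p H))⁆ := by
    calc K.map (QuotientGroup.mk' (Cfsg.pResidual p H))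
        ≤ L.map (QuotientGroup.mk' (Cfsg.pResidual p H)) := Subgroup.map_mono hKL
      _ = (Cfsg.pResidual p H).map (QuotientGroup.mk' (Cfsg.pResidual p H)) ⊔
          (⁅K, (⊤ : Subgroup H)⁆).map (QuotientGroup.mk' (Cfsg.pResidual p H)) :=
            Subgroup.map_sup _ _ _
      _ = (⁅K, (⊤ : Subgroup H)⁆).map (QuotientGroup.mk' (Cfsg.pResidual p H)) := by
            rw [QuotientGroup.map_mk'_self, bot_sup_eq]
      _ ≤ _ := by
            rw [Subgroup.map_commutator]
            exact Subgroup.commutator_mono le_rfl le_top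
  have hbot := eq_bot_of_le_commutator_top _ hbar
  intro x hx
  have hxK : (⟨x, hx.1⟩ : H) ∈ K := hx.2
  have h1 : QuotientGroup.mk' (Cfsg.pResidual p H) (⟨x, hx.1⟩ : H) ∈
      K.map (QuotientGroup.mk' (Cfsg.pResidual p H)) := ⟨_, hxK, rfl⟩
  rw [hbot, Subgroup.mem_bot] at h1
  exact ⟨⟨x, hx.1⟩, (QuotientGroup.eq_one_iff _).mp h1, rfl⟩

end Cfsg.Agent.Helper2
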